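import Cfsg.Agent.Cit.Defs
import Cfsg.Agent.CharDeep.QuatSylowBasic
import Cfsg.Agent.Prune
set_option linter.all false
prune_inst 0x7f00000000000000000000000000000000000000000000000000000000000000000000000000000000000000000000000000000000000000000000000000000000000000000000000000000000000000003fffffffffffffffffffffffffffbeffbdffffffff
open scoped Cfsg.Agent.FastGrp

/-!
# Tightly embedded subgroups with quaternion Sylow 2-subgroups: the reduction

`red` : for a tightly embedded `H` with generalised quaternion Sylow 2-subgroups there are an involution `z` and a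
normal subgroup `J` of `C_G(z)` containing `z` as its only involution, with generalised quaternion Sylow 2-subgroups.
-/

set_option autoImplicit false
set_option linter.style.haveILetI false
set_option linter.unusedSectionVars false

namespace Cfsg.Agent.H976.TightQ

open Subgroup Cfsg Cfsg.Agent.Cit

universe u

variable {G : Type u} [Group G] [Finite G]

/-- the centraliser of an involution of a tightly embedded subgroup normalises it -/
theorem cent_le (H : Subgroup G) (hH : IsTightlyEmbedded H) {z : G} (hz : orderOf z = 2) (hzH : z ∈ H) :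
    centralizer ({z} : Set G) ≤ normalizer (H : Set G) := by
  intro g hg
  by_contra hn
  have h1 := hH.2 g hn
  have h2 : z ∈ H ⊓ H.map (MulAut.conj g).toMonoidHom := by
    refine ⟨hzH, z, hzH, ?_⟩
    rw [mem_centralizer_singleton_iff] at hg
    change g * z * g⁻¹ = z
    rw [hg, mul_assoc, mul_inv_cancel, mul_one]
  have h3 : orderOf (⟨z, h2⟩ : ↥(H ⊓ H.map (MulAut.conj g).toMonoidHom)) = 2 := by
    rw [Subgroup.orderOf_mk]; exact hz
  have h4 : 2 ∣ Nat.card ↥(H ⊓ H.map (MulAut.conj g).toMonoidHom) := h3 ▸ orderOf_dvd_natCard _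
  rw [← Nat.not_even_iff_odd] at h1
  exact h1 (even_iff_two_dvd.2 h4)

/-- **the reduction** -/
theorem red (H : Subgroup G) (hH : IsTightlyEmbedded H)
    (hQ : ∀ S : Sylow 2 ↥H, ∃ n : ℕ, Nonempty (↥(S : Subgroup ↥H) ≃* QuaternionGroup (2 ^ (n + 1)))) :
    ∃ (z : G) (J : Subgroup G), orderOf z = 2 ∧ J ≤ centralizer ({z} : Set G) ∧ z ∈ J ∧
      (∃ S : Sylow 2 ↥J, ∃ n : ℕ, Nonempty (↥(S : Subgroup ↥J) ≃* QuaternionGroup (2 ^ (n + 1)))) ∧
      (∀ t ∈ J, orderOf t = 2 → t = z) ∧ centralizer ({z} : Set G) ≤ normalizer (J : Set G) := by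
  haveI : Fact (Nat.Prime 2) := ⟨Nat.prime_two⟩
  obtain ⟨S⟩ : Nonempty (Sylow 2 ↥H) := inferInstance
  obtain ⟨n, ⟨e⟩⟩ := hQ S
  obtain ⟨y, hyS, hy⟩ := CharDeep.QuatSylowBasic.exists_of_equiv e
  set z : G := (y : G) with hzdef
  have hz : orderOf z = 2 := by rw [hzdef, Subgroup.orderOf_coe]; exact hy
  have hzH : z ∈ H := y.2
  -- `z` is central in `S`
  have hyc : ∀ s ∈ (S : Subgroup ↥H), s * y = y * s := by
    intro s hs
    have h1 : orderOf (s * y * s⁻¹) = 2 := by
      have := (MulAut.conj s).orderOf_eq y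
      rw [← hy]; exact this
    have h2 := CharDeep.QuatSylowBasic.unique_of_equiv e (s * y * s⁻¹) y
      ((S : Subgroup ↥H).mul_mem ((S : Subgroup ↥H).mul_mem hs hyS) ((S : Subgroup ↥H).inv_mem hs)) hyS h1 hy
    rw [mul_inv_eq_iff_eq_mul] at h2
    exact h2
  refine ⟨z, H ⊓ centralizer ({z} : Set G), hz, inf_le_right, ⟨hzH, mem_centralizer_singleton_iff.2 rfl⟩,
    ?_, ?_, ?_⟩
  · -- the Sylow subgroup `S` lies in `J`
    set J : Subgroup G := H ⊓ centralizer ({z} : Set G) with hJ
    have hle : (S : Subgroup ↥H) ≤ J.subgroupOf H := by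
      intro s hs
      rw [mem_subgroupOf]
      exact mem_inf.2 ⟨s.2, mem_centralizer_singleton_iff.2 (congrArg Subtype.val (hyc s hs))⟩
    have hSG : (S : Subgroup ↥H).map H.subtype ≤ J := by
      rintro _ ⟨s, hs, rfl⟩
      exact mem_subgroupOf.1 (hle hs)
    have h2 : IsPGroup 2 (((S : Subgroup ↥H).map H.subtype).subgroupOf J) :=
      (S.isPGroup'.map H.subtype).comap_subtype
    have h3 : ¬ 2 ∣ (((S : Subgroup ↥H).map H.subtype).subgroupOf J).index := by
      intro h
      apply S.not_dvd_index
      refine h.trans ?_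
      have h4 : (((S : Subgroup ↥H).map H.subtype).subgroupOf H).index = (S : Subgroup ↥H).index := by
        congr 1
        exact Subgroup.comap_map_eq_self_of_injective H.subtype_injective _
      rw [← h4]
      exact Dvd.intro _ (relIndex_mul_relIndex _ _ _ hSG inf_le_left)
    refine ⟨h2.toSylow h3, n, ⟨?_⟩⟩
    exact ((subgroupOfEquivOfLe hSG).trans
      ((S : Subgroup ↥H).equivMapOfInjective _ H.subtype_injective).symm).trans e
  · -- uniqueness of the involution
    intro t htJ ht
    obtain ⟨htH, htc⟩ := mem_inf.1 htJ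
    rw [mem_centralizer_singleton_iff] at htc
    set a : ↥H := ⟨t, htH⟩
    have ha : orderOf a = 2 := by rw [← ht, Subgroup.orderOf_mk]
    have hcom : Commute a y := Subtype.ext htc
    have hp : IsPGroup 2 ↥(Subgroup.closure ({a, y} : Set ↥H)) := by
      have hcm : ∀ u ∈ ({a, y} : Set ↥H), ∀ v ∈ ({a, y} : Set ↥H), u * v = v * u := by
        rintro u (rfl | rfl) v (rfl | rfl)
        · rfl
        · exact hcom
        · exact hcom.symm
        · rfl
      intro x
      refine ⟨1, ?_⟩
      have hx := x.2
      have key : ∀ w ∈ Subgroup.closure ({a, y} : Set ↥H), w ^ 2 = 1 := by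
        intro w hw
        haveI : IsMulCommutative ↥(Subgroup.closure ({a, y} : Set ↥H)) :=
          Subgroup.isMulCommutative_closure hcm
        induction hw using Subgroup.closure_induction with
        | mem w hw =>
          rcases hw with rfl | rfl
          · rw [← ha]; exact pow_orderOf_eq_one _
          · rw [← hy]; exact pow_orderOf_eq_one _
        | one => exact one_pow _
        | mul u v hu hv hu2 hv2 =>
          have huv : Commute u v := by
            have := mul_comm' (⟨u, hu⟩ : ↥(Subgroup.closure ({a, y} : Set ↥H))) ⟨v, hv⟩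
            exact congrArg Subtype.val this
          rw [huv.mul_pow, hu2, hv2, one_mul]
        | inv u hu hu2 => rw [inv_pow, hu2, inv_one]
      exact Subtype.ext (key x.1 hx)
    obtain ⟨T, hT⟩ := hp.exists_le_sylow
    obtain ⟨m, ⟨e'⟩⟩ := hQ T
    have h5 := CharDeep.QuatSylowBasic.unique_of_equiv e' a y
      (hT (Subgroup.subset_closure (by simp))) (hT (Subgroup.subset_closure (by simp))) ha hy
    exact congrArg Subtype.val h5
  · intro g hg
    have h6 := mem_normalizer_iff_cj.1 (cent_le H hH hz hzH hg)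
    rw [mem_normalizer_iff_cj, cj_inf, h6, cj_centralizer]
    rw [mem_centralizer_singleton_iff] at hg
    rw [hg, mul_assoc, mul_inv_cancel, mul_one]

end Cfsg.Agent.H976.TightQ
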